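import Cfsg.Agent.FT.Base
import Cfsg.Agent.BG.PiHall

/-! Hall subgroups: extensions of `D_π` by `π`- and `π'`-groups, `C_π` is closed under extensions
(modulo the odd order theorem). -/

set_option autoImplicit false

open scoped Pointwise

namespace Cfsg.Agent.FT

open Cfsg.Agent.BG

universe u

/-- `D_π` in the strong form (Hall subgroup containing a conjugate of every `π`-subgroup). -/
def DP (π : Set ℕ) (G : Type u) [Group G] : Prop :=
  ∃ K : Subgroup G, Cfsg.IsPiHall π K ∧ ∀ U : Subgroup G, (∀ q : ℕ, q.Prime → q ∣ Nat.card U → q ∈ π) →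
    ∃ g : G, U ≤ MulAut.conj g • K

variable {π : Set ℕ} {G : Type u} [Group G] [Finite G]

theorem DP.conj (h : DP π G) {K L : Subgroup G} (hK : Cfsg.IsPiHall π K) (hL : Cfsg.IsPiHall π L) :
    ∃ g : G, L = MulAut.conj g • K := by
  obtain ⟨M, hM, hM'⟩ := h
  obtain ⟨a, ha⟩ := hM' K hK.1
  obtain ⟨b, hb⟩ := hM' L hL.1
  have h1 := IsPiHall.eq_of_le hK ha (isPiHall_conj hM a).1
  have h2 := IsPiHall.eq_of_le hL hb (isPiHall_conj hM b).1
  refine ⟨b * a⁻¹, ?_⟩
  rw [h1, h2, Hall.conj_smul_conj_smul, inv_mul_cancel_right]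

theorem comap_conj_smul {Q : Type*} [Group Q] (f : G →* Q) (g : G) (K : Subgroup Q) :
    (MulAut.conj (f g) • K).comap f = MulAut.conj g • (K.comap f) := by
  ext x
  rw [Subgroup.mem_comap, Hall.mem_conj_smul, Hall.mem_conj_smul, Subgroup.mem_comap]
  simp

theorem card_comap_eq {Q : Type*} [Group Q] (f : G →* Q) (hf : Function.Surjective f) (K : Subgroup Q) :
    Nat.card (K.comap f) = Nat.card f.ker * Nat.card K := by
  have h2 := Subgroup.card_mul_index ((f.ker).subgroupOf (K.comap f))
  have hle : f.ker ≤ K.comap f := by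
    intro x hx
    rw [Subgroup.mem_comap, (MonoidHom.mem_ker).1 hx]; exact one_mem _
  have h3 : Nat.card ((f.ker).subgroupOf (K.comap f)) = Nat.card f.ker :=
    Nat.card_congr (Subgroup.subgroupOfEquivOfLe hle).toEquiv
  have h4 : ((f.ker).subgroupOf (K.comap f)).index = Nat.card K := by
    have h5 : (f.ker).subgroupOf (K.comap f) = (f.subgroupComap K).ker := by
      ext x
      rw [Subgroup.mem_subgroupOf, MonoidHom.mem_ker, MonoidHom.mem_ker]
      constructor
      · intro h; exact Subtype.ext h
      · intro h; exact congrArg Subtype.val h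
    rw [h5, Subgroup.index_ker, MonoidHom.range_eq_top.2 (MonoidHom.subgroupComap_surjective_of_surjective f K hf),
      Subgroup.card_top]
  rw [← h2, h3, h4]

theorem DP_ext {Q : Type*} [Group Q] (f : G →* Q) (hf : Function.Surjective f)
    (hker : (∀ q : ℕ, q.Prime → q ∣ Nat.card f.ker → q ∈ π) ∨ (∀ q : ℕ, q.Prime → q ∣ Nat.card f.ker → q ∉ π))
    (h : DP π Q) : DP π G := by
  have hQ : Finite Q := Finite.of_surjective f hf
  obtain ⟨K, hK, hKU⟩ := h
  have hcard := card_comap_eq f hf K
  have hidx : (K.comap f).index = K.index := Subgroup.index_comap_of_surjective K hf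
  have hpmap : ∀ U : Subgroup G, (∀ q : ℕ, q.Prime → q ∣ Nat.card U → q ∈ π) →
      (∀ q : ℕ, q.Prime → q ∣ Nat.card (U.map f) → q ∈ π) := by
    intro U hU q hq hd
    exact hU q hq (hd.trans (Subgroup.card_map_dvd U f))
  rcases hker with hker | hker
  · refine ⟨K.comap f, ⟨?_, by rw [hidx]; exact hK.2⟩, ?_⟩
    · intro p hp hd
      rw [hcard] at hd
      rcases (hp.dvd_mul).1 hd with h | h
      · exact hker p hp h
      · exact hK.1 p hp h
    · intro U hU
      obtain ⟨q, hq⟩ := hKU (U.map f) (hpmap U hU)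
      obtain ⟨g, rfl⟩ := hf q
      refine ⟨g, ?_⟩
      rw [← comap_conj_smul, ← Subgroup.map_le_iff_le_comap]
      exact hq
  · set M := K.comap f with hM
    have hle : f.ker ≤ M := by
      intro x hx
      rw [hM, Subgroup.mem_comap, (MonoidHom.mem_ker).1 hx]; exact one_mem _
    have hcop : (Nat.card f.ker).Coprime (Nat.card K) :=
      (coprime_of_pi (π := π) hK.1 (fun p hp hpi hd => hker p hp hd hpi)).symm
    -- the complement
    have h1 : Nat.card ((f.ker).subgroupOf M) = Nat.card f.ker :=
      Nat.card_congr (Subgroup.subgroupOfEquivOfLe hle).toEquiv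
    have h2 : ((f.ker).subgroupOf M).index = Nat.card K := by
      have h3 := Subgroup.card_mul_index ((f.ker).subgroupOf M)
      rw [h1, hcard] at h3
      exact Nat.eq_of_mul_eq_mul_left Nat.card_pos h3
    obtain ⟨C, hC⟩ := Subgroup.exists_right_complement'_of_coprime (N := (f.ker).subgroupOf M) (by rw [h1, h2]; exact hcop)
    set H := C.map M.subtype with hH
    have hHM : H ≤ M := Subgroup.map_subtype_le _
    have hHcard : Nat.card H = Nat.card K := by
      rw [hH, ← h2, hC.symm.index_eq_card]
      exact (Nat.card_congr (C.equivMapOfInjective _ M.subtype_injective).toEquiv).symm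
    have hHsup : f.ker ⊔ H = M := by
      apply le_antisymm (sup_le hle hHM)
      intro x hx
      have hx' : (⟨x, hx⟩ : M) ∈ ((f.ker).subgroupOf M) ⊔ C := by
        rw [hC.sup_eq_top]; trivial
      obtain ⟨a, ha, b, hb, hab⟩ := Subgroup.mem_sup_of_normal_left.1 hx'
      have h9 : x = (a : G) * (b : G) := (congrArg Subtype.val hab).symm
      rw [h9]
      exact mul_mem (Subgroup.mem_sup_left ha) (Subgroup.mem_sup_right ⟨b, hb, rfl⟩)
    have hHall : Cfsg.IsPiHall π H := by
      refine ⟨by rw [hHcard]; exact hK.1, ?_⟩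
      intro p hp hpi hd
      have h3 : Nat.card H * H.index = Nat.card H * (Nat.card f.ker * K.index) := by
        rw [H.card_mul_index, ← M.card_mul_index, hcard, hidx, hHcard]; ring
      rw [Nat.eq_of_mul_eq_mul_left Nat.card_pos h3] at hd
      rcases (hp.dvd_mul).1 hd with h | h
      · exact hker p hp h hpi
      · exact hK.2 p hp hpi h
    refine ⟨H, hHall, ?_⟩
    intro U hU
    obtain ⟨q, hq⟩ := hKU (U.map f) (hpmap U hU)
    obtain ⟨g, rfl⟩ := hf q
    have hUg : MulAut.conj g⁻¹ • U ≤ M := by
      have h3 : U ≤ MulAut.conj g • M := by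
        rw [hM, ← comap_conj_smul, ← Subgroup.map_le_iff_le_comap]
        exact hq
      intro x hx
      rw [Hall.mem_conj_smul] at hx
      have h4 := h3 hx
      rw [Hall.mem_conj_smul] at h4
      have h5 : g⁻¹ * (g⁻¹⁻¹ * x * g⁻¹) * g = x := by group
      rwa [h5] at h4
    set U' := MulAut.conj g⁻¹ • U with hU'
    have hU'card : Nat.card U' = Nat.card U := Hall.card_conj_smul _ _
    set X := H ⊓ (f.ker ⊔ U') with hX
    have hcopX : (Nat.card f.ker).Coprime (Nat.card X) :=
      hcop.coprime_dvd_right (hHcard ▸ Subgroup.card_dvd_of_le inf_le_left)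
    have hcopU : (Nat.card f.ker).Coprime (Nat.card U') := by
      rw [hU'card]
      exact (coprime_of_pi (π := π) hU (fun p hp hpi hd => hker p hp hd hpi)).symm
    have hXsup : f.ker ⊔ X = f.ker ⊔ U' := by
      apply le_antisymm (sup_le le_sup_left inf_le_right)
      intro x hx
      have hxM : x ∈ f.ker ⊔ H := by rw [hHsup]; exact (sup_le hle hUg) hx
      obtain ⟨a, ha, b, hb, rfl⟩ := Subgroup.mem_sup_of_normal_left.1 hxM
      refine mul_mem (Subgroup.mem_sup_left ha) (Subgroup.mem_sup_right ⟨hb, ?_⟩)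
      have h3 : b = a⁻¹ * (a * b) := by group
      rw [h3]
      exact mul_mem (Subgroup.mem_sup_left (inv_mem ha)) hx
    have hcardsup : ∀ Y : Subgroup G, (Nat.card f.ker).Coprime (Nat.card Y) →
        Nat.card (f.ker ⊔ Y : Subgroup G) = Nat.card f.ker * Nat.card Y := by
      intro Y hY
      have h3 := Solv.mul_card_sup_of_normal Y f.ker
      have h4 : Nat.card (Y ⊓ f.ker : Subgroup G) = 1 := by
        apply Nat.eq_one_of_dvd_coprimes hY
        · exact Subgroup.card_dvd_of_le inf_le_right
        · exact Subgroup.card_dvd_of_le inf_le_left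
      rw [sup_comm]
      first
        | (rw [h4] at h3; linarith)
        | skip
    have hXcard : Nat.card U' = Nat.card X := by
      have h3 := hcardsup X hcopX
      have h4 := hcardsup U' hcopU
      rw [hXsup, h4] at h3
      exact Nat.eq_of_mul_eq_mul_left Nat.card_pos h3
    obtain ⟨n, hn, hn'⟩ := sz_rel (N := f.ker) (A := X) (B := U')
      (by rw [Subgroup.normalizer_eq_top]; exact le_top) (by rw [hXsup]; exact le_sup_right) hXcard hcopX
    refine ⟨g * n, ?_⟩
    have h5 : U = MulAut.conj g • U' := by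
      rw [hU', Hall.conj_smul_conj_smul, mul_inv_cancel, map_one, one_smul]
    rw [h5, ← hn', Hall.conj_smul_conj_smul]
    exact Hall.conj_smul_mono inf_le_left

theorem DP_chain {n : ℕ} (H : Fin (n + 1) → Subgroup G) (h0 : H 0 = ⊥) (hl : H (Fin.last n) = ⊤)
    (hm : Monotone H) (hn : ∀ i, (H i).Normal)
    (hsep : ∀ i : Fin n, (∀ q : ℕ, q.Prime → q ∣ (H i.castSucc).relIndex (H i.succ) → q ∈ π) ∨
        (∀ q : ℕ, q.Prime → q ∣ (H i.castSucc).relIndex (H i.succ) → q ∉ π)) : DP π G := by
  have key : ∀ i : Fin (n + 1), DP π (G ⧸ H i) := by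
    intro i
    induction i using Fin.reverseInduction with
    | last =>
      refine ⟨⊥, ⟨?_, ?_⟩, ?_⟩
      · intro p hp hd
        rw [Subgroup.card_bot] at hd
        exact absurd (Nat.dvd_one.1 hd) hp.ne_one
      · intro p hp _ hd
        have h1 : Nat.card (G ⧸ H (Fin.last n)) = 1 := by
          rw [← Subgroup.index_eq_card, hl, Subgroup.index_top]
        rw [Subgroup.index_bot, h1] at hd
        exact hp.ne_one (Nat.dvd_one.1 hd)
      · intro U _
        refine ⟨1, ?_⟩
        have h1 : Subsingleton (G ⧸ H (Fin.last n)) := by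
          rw [← Finite.card_le_one_iff_subsingleton, ← Subgroup.index_eq_card, hl, Subgroup.index_top]
        intro x _
        rw [Subsingleton.elim x 1]
        exact one_mem _
    | cast i ih =>
      have hle : H i.castSucc ≤ H i.succ := hm (Fin.castSucc_le_succ i)
      set f : G ⧸ H i.castSucc →* G ⧸ H i.succ := QuotientGroup.map _ _ (MonoidHom.id G) hle with hf
      have hfs : Function.Surjective f := by
        intro x
        obtain ⟨g, rfl⟩ := QuotientGroup.mk_surjective x
        exact ⟨(g : G ⧸ H i.castSucc), rfl⟩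
      have hker : Nat.card f.ker = (H i.castSucc).relIndex (H i.succ) := by
        have h1 := card_comap_eq (QuotientGroup.mk' (H i.castSucc)) (QuotientGroup.mk'_surjective _) f.ker
        rw [QuotientGroup.ker_mk'] at h1
        have h2 : f.ker.comap (QuotientGroup.mk' (H i.castSucc)) = H i.succ := by
          ext g
          rw [Subgroup.mem_comap, MonoidHom.mem_ker]
          exact QuotientGroup.eq_one_iff g
        rw [h2] at h1
        have h3 : Nat.card (H i.castSucc) * (H i.castSucc).relIndex (H i.succ) = Nat.card (H i.succ) := by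
          rw [← Subgroup.relIndex_bot_left (H i.castSucc), ← Subgroup.relIndex_bot_left (H i.succ),
            Subgroup.relIndex_mul_relIndex _ _ _ bot_le hle]
        rw [h1] at h3
        exact (Nat.eq_of_mul_eq_mul_left Nat.card_pos h3).symm
      refine DP_ext f hfs ?_ ih
      rw [hker]
      exact hsep i
  have h1 := key 0
  refine DP_ext (QuotientGroup.mk' (H 0)) (QuotientGroup.mk'_surjective _) (Or.inl ?_) h1
  intro q hq hd
  rw [QuotientGroup.ker_mk', h0, Subgroup.card_bot] at hd
  exact absurd (Nat.dvd_one.1 hd) hq.ne_one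

end Cfsg.Agent.FT
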