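import Cfsg.Agent.FT.Base
import Cfsg.Agent.FStar.Layer

/-! Groups in which cyclic 2-subgroups of the same order are conjugate have at most one component. -/

set_option autoImplicit false

namespace Cfsg.Agent.FT

open Cfsg.Agent

variable {G : Type*} [Group G]

/-- `u` does not centralise `L` -/
def Mv (u : G) (L : Subgroup G) : Prop := ∃ x ∈ L, ¬ Commute u x

theorem Mv.conj {u : G} {L : Subgroup G} (h : Mv u L) (g : G) :
    Mv (g * u * g⁻¹) (L.map (MulAut.conj g).toMonoidHom) := by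
  obtain ⟨x, hx, hxu⟩ := h
  refine ⟨g * x * g⁻¹, ⟨x, hx, rfl⟩, fun h => hxu ?_⟩
  have h1 : g * (u * x) * g⁻¹ = g * (x * u) * g⁻¹ := by
    calc g * (u * x) * g⁻¹ = (g * u * g⁻¹) * (g * x * g⁻¹) := by group
      _ = (g * x * g⁻¹) * (g * u * g⁻¹) := h.eq
      _ = g * (x * u) * g⁻¹ := by group
  exact mul_left_cancel (mul_right_cancel h1)

theorem not_Mv_zpowers {u v : G} {L : Subgroup G} (h : ¬ Mv v L) (hu : u ∈ Subgroup.zpowers v) : ¬ Mv u L := by
  rintro ⟨x, hx, hxu⟩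
  apply hxu
  obtain ⟨k, rfl⟩ := Subgroup.mem_zpowers_iff.1 hu
  have h1 : Commute v x := by
    by_contra h2
    exact h ⟨x, hx, h2⟩
  exact h1.zpow_left k

theorem exists_two_element {L : Subgroup G} [Finite G] (hL : Cfsg.IsQuasisimple L) :
    ∃ x ∈ L, (∃ k : ℕ, orderOf x = 2 ^ k) ∧ Mv x L := by
  have hs : IsSimpleGroup (L ⧸ Subgroup.center L) := hL.2
  have hnc : ¬ IsMulCommutative (L ⧸ Subgroup.center L) := by
    intro h
    have h1 : commutator L ≤ Subgroup.center L := by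
      rw [commutator_def, Subgroup.commutator_le]
      intro a _ b _
      rw [← QuotientGroup.eq_one_iff, commutatorElement_def, QuotientGroup.mk_mul, QuotientGroup.mk_mul,
        QuotientGroup.mk_mul, QuotientGroup.mk_inv, QuotientGroup.mk_inv, h.is_comm.comm (a : L ⧸ Subgroup.center L) b]
      group
    have h2 := FStar.commutator_top_eq_top hL
    rw [commutator_def, h2] at h1
    exact FStar.center_ne_top_of_isQuasisimple hL (top_le_iff.1 h1)
  have h2 := even_of_simple hnc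
  have : Fact (Nat.Prime 2) := ⟨Nat.prime_two⟩
  obtain ⟨q, hq⟩ := exists_prime_orderOf_dvd_card' 2 h2
  obtain ⟨y, rfl⟩ := QuotientGroup.mk_surjective q
  have hy0 : orderOf y ≠ 0 := (orderOf_pos y).ne'
  obtain ⟨k, m, hm, hkm⟩ := Nat.exists_eq_two_pow_mul_odd hy0
  have hyq : ((y : L ⧸ Subgroup.center L)) ^ 2 = 1 := by rw [← hq]; exact pow_orderOf_eq_one _
  have hyq1 : (y : L ⧸ Subgroup.center L) ≠ 1 := by
    intro h; rw [h, orderOf_one] at hq; exact absurd hq (by norm_num)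
  have hym : ((y ^ m : L) : L ⧸ Subgroup.center L) = y := by
    obtain ⟨j, rfl⟩ := hm
    rw [QuotientGroup.mk_pow, pow_add, pow_mul, hyq, one_pow, one_mul, pow_one]
  refine ⟨((y ^ m : L) : G), (y ^ m : L).2, ⟨k, ?_⟩, ?_⟩
  · rw [Subgroup.orderOf_coe]
    have hm0 : m ≠ 0 := by rintro rfl; exact absurd hm (by decide)
    rw [orderOf_pow_of_dvd hm0 (by rw [hkm]; exact Dvd.intro_left _ rfl), hkm]
    exact Nat.mul_div_cancel _ (Nat.pos_of_ne_zero hm0)
  · by_contra h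
    apply hyq1
    rw [← hym, QuotientGroup.eq_one_iff, Subgroup.mem_center_iff]
    intro z
    by_contra h3
    exact h ⟨z, z.2, fun h4 => h3 (Subtype.ext h4.eq.symm)⟩

theorem exists_min_two_element {L : Subgroup G} [Finite G] (hL : Cfsg.IsQuasisimple L) :
    ∃ x ∈ L, (∃ k : ℕ, orderOf x = 2 ^ k) ∧ Mv x L ∧
      ∀ y ∈ L, (∃ k : ℕ, orderOf y = 2 ^ k) → orderOf y < orderOf x → ¬ Mv y L := by
  obtain ⟨x0, hx0, hx0'⟩ := exists_two_element hL
  obtain ⟨x, hx, hmin⟩ := Set.exists_min_image {x : G | x ∈ L ∧ (∃ k : ℕ, orderOf x = 2 ^ k) ∧ Mv x L} orderOf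
    (Set.toFinite _) ⟨x0, hx0, hx0'⟩
  refine ⟨x, hx.1, hx.2.1, hx.2.2, ?_⟩
  intro y hy hk hlt hM
  exact absurd (hmin y ⟨hy, hk, hM⟩) (not_le.2 hlt)

theorem two_comp_false [Finite G] (hP : ∀ A B : Subgroup G, IsCyclic ↥A → IsCyclic ↥B → IsPGroup 2 ↥A →
    Nat.card ↥A = Nat.card ↥B → ∃ g : G, B = A.map (MulAut.conj g).toMonoidHom)
    {L1 L2 : Subgroup G} (h1 : Cfsg.IsComponent L1) (h2 : Cfsg.IsComponent L2) (hne : L1 ≠ L2)
    {x1 x2 : G} (hx1 : x1 ∈ L1) (hx2 : x2 ∈ L2) {a1 a2 : ℕ} (ho1 : orderOf x1 = 2 ^ a1) (ho2 : orderOf x2 = 2 ^ a2)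
    (hM1 : Mv x1 L1) (hM2 : Mv x2 L2)
    (hmin : ∀ y ∈ L1, (∃ k : ℕ, orderOf y = 2 ^ k) → orderOf y < orderOf x1 → ¬ Mv y L1)
    (hle : a1 ≤ a2) : False := by
  have hcomm : ∀ {K L : Subgroup G}, Cfsg.IsComponent K → Cfsg.IsComponent L → K ≠ L → ∀ x ∈ K, ¬ Mv x L := by
    rintro K L hK hL hKL x hx ⟨y, hy, hxy⟩
    have h := (FStar.commutator_eq_bot_iff_forall.1 (FStar.component_commute hK hL hKL)) x hx y hy
    exact hxy h
  have hcommx : Commute x1 x2 := by
    by_contra h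
    exact hcomm h1 h2 hne x1 hx1 ⟨x2, hx2, h⟩
  set u := x1 * x2 with hu
  have hMu1 : Mv u L1 := by
    obtain ⟨y, hy, hyx⟩ := hM1
    refine ⟨y, hy, fun h => hyx ?_⟩
    have h3 : Commute x2 y := by
      by_contra h4
      exact hcomm h2 h1 (Ne.symm hne) x2 hx2 ⟨y, hy, h4⟩
    have h4 : x1 = u * x2⁻¹ := by rw [hu]; group
    rw [h4]; exact h.mul_left h3.inv_left
  have hMu2 : Mv u L2 := by
    obtain ⟨y, hy, hyx⟩ := hM2
    refine ⟨y, hy, fun h => hyx ?_⟩
    have h3 : Commute x1 y := by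
      by_contra h4
      exact hcomm h1 h2 hne x1 hx1 ⟨y, hy, h4⟩
    have h4 : x2 = x1⁻¹ * u := by rw [hu]; group
    rw [h4]; exact h3.inv_left.mul_left h
  -- conjugacy of elements of equal 2-power order
  have hPe : ∀ u v : G, (∃ k : ℕ, orderOf u = 2 ^ k) → orderOf u = orderOf v →
      ∃ g : G, g * u * g⁻¹ ∈ Subgroup.zpowers v := by
    rintro u v ⟨k, hk⟩ huv
    obtain ⟨g, hg⟩ := hP (Subgroup.zpowers u) (Subgroup.zpowers v) inferInstance inferInstance
      (IsPGroup.of_card (n := k) (by rw [Nat.card_zpowers, hk])) (by rw [Nat.card_zpowers, Nat.card_zpowers, huv])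
    refine ⟨g, ?_⟩
    rw [hg]
    exact ⟨u, Subgroup.mem_zpowers u, rfl⟩
  have hupow : u ^ 2 ^ a2 = 1 := by
    rw [hu, hcommx.mul_pow]
    have e1 : x1 ^ 2 ^ a2 = 1 := orderOf_dvd_iff_pow_eq_one.1 (by rw [ho1]; exact pow_dvd_pow 2 hle)
    have e2 : x2 ^ 2 ^ a2 = 1 := orderOf_dvd_iff_pow_eq_one.1 (by rw [ho2])
    rw [e1, e2, one_mul]
  obtain ⟨c, hc, hcu⟩ := (Nat.dvd_prime_pow Nat.prime_two).1 (orderOf_dvd_of_pow_eq_one hupow)
  rcases hc.lt_or_eq with hlt | heq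
  · -- order of u is smaller
    have ha : a1 = a2 := by
      by_contra hne2
      have hlt2 : a1 < a2 := lt_of_le_of_ne hle hne2
      have e1 : x1 ^ 2 ^ (a2 - 1) = 1 := orderOf_dvd_iff_pow_eq_one.1 (by rw [ho1]; exact pow_dvd_pow 2 (by omega))
      have e2 : u ^ 2 ^ (a2 - 1) = 1 := orderOf_dvd_iff_pow_eq_one.1 (by rw [hcu]; exact pow_dvd_pow 2 (by omega))
      rw [hu, hcommx.mul_pow, e1, one_mul] at e2
      have e3 := orderOf_dvd_of_pow_eq_one e2
      rw [ho2, Nat.pow_dvd_pow_iff_le_right (by norm_num)] at e3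
      omega
    set y := x1 ^ 2 ^ (a1 - c) with hy
    have hyo : orderOf y = 2 ^ c := by
      rw [hy, orderOf_pow_of_dvd (by positivity) (by rw [ho1]; exact pow_dvd_pow 2 (by omega)), ho1,
        Nat.pow_div (by omega) (by norm_num)]
      congr 1; omega
    have hyL : y ∈ L1 := pow_mem hx1 _
    have hyM : ∀ L : Subgroup G, Cfsg.IsComponent L → ¬ Mv y L := by
      intro L hL
      by_cases h : L1 = L
      · rw [← h]
        apply hmin y hyL ⟨c, hyo⟩
        rw [hyo, ho1]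
        exact Nat.pow_lt_pow_right (by norm_num) (by omega)
      · exact hcomm h1 hL h y hyL
    obtain ⟨g, hg⟩ := hPe u y ⟨c, hcu⟩ (by rw [hcu, hyo])
    have hcg : Cfsg.IsComponent (L1.map (MulAut.conj g).toMonoidHom) := (FStar.isComponent_conj g).2 h1
    exact not_Mv_zpowers (hyM _ hcg) hg (hMu1.conj g)
  · obtain ⟨g, hg⟩ := hPe u x2 ⟨c, hcu⟩ (by rw [hcu, ho2, heq])
    have key : ∀ L : Subgroup G, Cfsg.IsComponent L → Mv u L → L.map (MulAut.conj g).toMonoidHom = L2 := by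
      intro L hL hM
      have hcg : Cfsg.IsComponent (L.map (MulAut.conj g).toMonoidHom) := (FStar.isComponent_conj g).2 hL
      by_contra hne3
      exact not_Mv_zpowers (hcomm h2 hcg (Ne.symm hne3) x2 hx2) hg (hM.conj g)
    have e1 := key L1 h1 hMu1
    have e2 := key L2 h2 hMu2
    apply hne
    exact Subgroup.map_injective (MulAut.conj g).injective (e1.trans e2.symm)

theorem component_unique_of_conj [Finite G] (hP : ∀ A B : Subgroup G, IsCyclic ↥A → IsCyclic ↥B → IsPGroup 2 ↥A →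
    Nat.card ↥A = Nat.card ↥B → ∃ g : G, B = A.map (MulAut.conj g).toMonoidHom)
    {L1 L2 : Subgroup G} (h1 : Cfsg.IsComponent L1) (h2 : Cfsg.IsComponent L2) : L1 = L2 := by
  by_contra hne
  obtain ⟨x1, hx1, ⟨a1, ho1⟩, hM1, hmin1⟩ := exists_min_two_element h1.2
  obtain ⟨x2, hx2, ⟨a2, ho2⟩, hM2, hmin2⟩ := exists_min_two_element h2.2
  rcases le_total a1 a2 with hle | hle
  · exact two_comp_false hP h1 h2 hne hx1 hx2 ho1 ho2 hM1 hM2 hmin1 hle
  · exact two_comp_false hP h2 h1 (Ne.symm hne) hx2 hx1 ho2 ho1 hM2 hM1 hmin2 hle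

theorem layer_eq_of_conj [Finite G] (hP : ∀ A B : Subgroup G, IsCyclic ↥A → IsCyclic ↥B → IsPGroup 2 ↥A →
    Nat.card ↥A = Nat.card ↥B → ∃ g : G, B = A.map (MulAut.conj g).toMonoidHom)
    (hE : Cfsg.layer G ≠ ⊥) : Cfsg.IsQuasisimple (Cfsg.layer G) := by
  have hex : ∃ L : Subgroup G, Cfsg.IsComponent L := by
    by_contra hcon
    push Not at hcon
    apply hE
    rw [eq_bot_iff, FStar.layer_le_iff]
    intro L hL
    exact absurd hL (hcon L)
  obtain ⟨L, hL⟩ := hex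
  have h1 : Cfsg.layer G = L := by
    apply le_antisymm
    · rw [FStar.layer_le_iff]
      intro K hK
      rw [component_unique_of_conj hP hK hL]
    · exact FStar.component_le_layer hL
  rw [h1]; exact hL.2

theorem not_comm_of_quasisimple {L : Type*} [Group L] (hL : Cfsg.IsQuasisimple L) :
    ¬ IsMulCommutative (L ⧸ Subgroup.center L) := by
  intro h
  have h1 : commutator L ≤ Subgroup.center L := by
    rw [commutator_def, Subgroup.commutator_le]
    intro a _ b _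
    rw [← QuotientGroup.eq_one_iff, commutatorElement_def, QuotientGroup.mk_mul, QuotientGroup.mk_mul,
      QuotientGroup.mk_mul, QuotientGroup.mk_inv, QuotientGroup.mk_inv, h.is_comm.comm (a : L ⧸ Subgroup.center L) b]
    group
  have h2 := FStar.commutator_top_eq_top hL
  rw [commutator_def, h2] at h1
  exact FStar.center_ne_top_of_isQuasisimple hL (top_le_iff.1 h1)

end Cfsg.Agent.FT
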