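import Mathlib
import Cfsg.Agent.S0720
import Cfsg.Agent.S0985

/-! Finite groups with 22 Sylow 3-subgroups (there are none): the action on the Sylow subgroups. -/

set_option autoImplicit false

open scoped Pointwise

namespace Cfsg.Agent.Syl22

open Subgroup

variable {G : Type*} [Group G] [Finite G]

instance : Fact (Nat.Prime 3) := ⟨Nat.prime_three⟩

theorem coatom (h22 : Nat.card (Sylow 3 G) = 22) (P : Sylow 3 G) :
    IsCoatom (normalizer ((P : Subgroup G) : Set G)) := by
  have hidx : (normalizer ((P : Subgroup G) : Set G)).index = 22 := by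
    rw [← h22]; exact (P.card_eq_index_normalizer).symm
  constructor
  · intro h
    rw [h, index_top] at hidx
    omega
  · intro H hH
    have hPH : (P : Subgroup G) ≤ H := le_normalizer.trans hH.le
    have h1 := (P.subtype hPH).card_eq_index_normalizer
    have h2 : normalizer ((P.subtype hPH : Sylow 3 H) : Set H) =
        (normalizer ((P : Subgroup G) : Set G)).subgroupOf H := by
      change normalizer (((P.subtype hPH : Sylow 3 H) : Subgroup H) : Set H) = _
      rw [Sylow.coe_subtype]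
      exact (subgroupOf_normalizer_eq hPH).symm
    rw [h2] at h1
    have h3 : (normalizer ((P : Subgroup G) : Set G)).relIndex H * H.index = 22 := by
      rw [relIndex_mul_index hH.le, hidx]
    change _ = (normalizer ((P : Subgroup G) : Set G)).relIndex H at h1
    have h4 := card_sylow_modEq_one 3 H
    rw [h1] at h4
    have h5 : (normalizer ((P : Subgroup G) : Set G)).relIndex H ∣ 22 := Dvd.intro _ h3
    have h6 : (normalizer ((P : Subgroup G) : Set G)).relIndex H ∈ Nat.divisors 22 := by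
      rw [Nat.mem_divisors]; exact ⟨h5, by norm_num⟩
    have h7 : Nat.divisors 22 = {1, 2, 11, 22} := by decide
    rw [h7] at h6
    simp only [Finset.mem_insert, Finset.mem_singleton] at h6
    rcases h6 with h6 | h6 | h6 | h6
    · exfalso
      rw [relIndex_eq_one] at h6
      exact hH.not_ge h6
    · rw [h6] at h4; exact absurd h4 (by decide)
    · rw [h6] at h4; exact absurd h4 (by decide)
    · rw [h6] at h3
      have : H.index = 1 := by omega
      exact index_eq_one.1 this

theorem two_trans (h22 : Nat.card (Sylow 3 G) = 22) {P Q R S : Sylow 3 G} (hPQ : P ≠ Q) (hRS : R ≠ S) :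
    ∃ g : G, g • P = R ∧ g • Q = S := by
  classical
  have : Fintype (Sylow 3 G) := Fintype.ofFinite _
  have hnt : Nontrivial (Sylow 3 G) := ⟨P, Q, hPQ⟩
  have hprim : MulAction.IsPreprimitive G (Sylow 3 G) := by
    rw [← MulAction.isCoatom_stabilizer_iff_preprimitive G P, Sylow.stabilizer_eq_normalizer]
    exact coatom h22 P
  let f := MulAction.toPermHom G (Sylow 3 G)
  let φ : Sylow 3 G →ₑ[f.rangeRestrict] Sylow 3 G :=
    { toFun := id
      map_smul' := fun g x => rfl }
  have hprim' : MulAction.IsPreprimitive f.range (Sylow 3 G) :=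
    MulAction.IsPreprimitive.of_surjective (f := φ) Function.surjective_id
  have hcard : Fintype.card (Sylow 3 G) = 2 * 11 := by
    rw [← Nat.card_eq_fintype_card, h22]
  rcases Cfsg.Agent.S0720.result (by norm_num : Nat.Prime 11) hcard f.range hprim' P with h | ⟨-, a, -, ha, -⟩
  · rw [MulAction.is_two_pretransitive_iff] at h
    obtain ⟨⟨_, g, rfl⟩, h1, h2⟩ := h hPQ hRS
    exact ⟨g, h1, h2⟩
  · exfalso
    have h1 : a ^ 2 + a = 5 := by omega
    have h2 : a ≤ 2 := by nlinarith
    interval_cases a <;> omega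

theorem relIndex_three (h22 : Nat.card (Sylow 3 G) = 22) {P Q : Sylow 3 G} (hPQ : P ≠ Q) :
    ((Q : Subgroup G)).relIndex (P : Subgroup G) = 3 := by
  obtain ⟨R, S, hRS, hidx⟩ := Cfsg.Agent.S0985.result (G := G) 3 2 (by rw [h22]; decide)
  have h1 : ((S : Subgroup G)).relIndex (R : Subgroup G) = 3 := by
    change ((S : Subgroup G)).relIndex (R : Subgroup G) ≤ 3 ^ 1 at hidx
    have h2 : ∃ k, ((S : Subgroup G)).relIndex (R : Subgroup G) = 3 ^ k := by
      have h3 : ((S : Subgroup G)).relIndex (R : Subgroup G) ∣ Nat.card R := relIndex_dvd_card _ _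
      obtain ⟨n, hn⟩ := R.2.exists_card_eq
      rw [hn] at h3
      obtain ⟨k, -, hk⟩ := (Nat.dvd_prime_pow Nat.prime_three).1 h3
      exact ⟨k, hk⟩
    obtain ⟨k, hk⟩ := h2
    have h4 : k ≠ 0 := by
      rintro rfl
      rw [pow_zero, relIndex_eq_one] at hk
      apply hRS
      exact Sylow.ext (R.3 S.2 hk).symm
    rw [hk] at hidx ⊢
    have h5 : k ≤ 1 := (Nat.pow_le_pow_iff_right (by norm_num)).1 hidx
    have : k = 1 := by omega
    rw [this, pow_one]
  obtain ⟨g, hg1, hg2⟩ := two_trans h22 hRS hPQ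
  rw [← hg1, ← hg2, Sylow.coe_subgroup_smul, Sylow.coe_subgroup_smul]
  have h3 := Subgroup.relIndex_pointwise_smul (MulAut.conj g) (S : Subgroup G) (R : Subgroup G)
  exact h3.trans h1

theorem sylow_le_normalizer (h22 : Nat.card (Sylow 3 G) = 22) {P Q : Sylow 3 G} (hPQ : P ≠ Q) :
    (P : Subgroup G) ≤ normalizer (((P : Subgroup G) ⊓ (Q : Subgroup G) : Subgroup G) : Set G) := by
  have h1 := relIndex_three h22 hPQ
  have h2 : (((P : Subgroup G) ⊓ (Q : Subgroup G)).subgroupOf (P : Subgroup G)).Normal := by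
    apply normal_of_index_eq_minFac_card
    have h3 : (((P : Subgroup G) ⊓ (Q : Subgroup G)).subgroupOf (P : Subgroup G)).index = 3 := by
      rw [inf_comm]
      change ((Q : Subgroup G) ⊓ (P : Subgroup G)).relIndex (P : Subgroup G) = 3
      rw [inf_relIndex_right, h1]
    rw [h3]
    obtain ⟨n, hn⟩ := P.2.exists_card_eq
    rw [hn]
    have hn0 : n ≠ 0 := by
      rintro rfl
      have h4 := relIndex_dvd_card (Q : Subgroup G) (P : Subgroup G)
      rw [h1, hn] at h4
      norm_num at h4
    rw [Nat.Prime.pow_minFac Nat.prime_three hn0]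
  exact (normal_subgroupOf_iff_le_normalizer inf_le_left).1 h2

theorem inter_eq (h22 : Nat.card (Sylow 3 G) = 22) {P Q R : Sylow 3 G} (hPQ : P ≠ Q) (hPR : P ≠ R)
    (h : (P : Subgroup G) ⊓ Q ≤ (R : Subgroup G)) : (P : Subgroup G) ⊓ R = (P : Subgroup G) ⊓ Q := by
  symm
  have h1 : (P : Subgroup G) ⊓ Q ≤ (P : Subgroup G) ⊓ R := le_inf inf_le_left h
  have h2 := relIndex_mul_relIndex _ _ _ h1 (inf_le_left : (P : Subgroup G) ⊓ R ≤ P)
  rw [inf_comm (P : Subgroup G) (R : Subgroup G), inf_comm (P : Subgroup G) (Q : Subgroup G), inf_relIndex_right, inf_relIndex_right,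
    relIndex_three h22 hPQ, relIndex_three h22 hPR] at h2
  have h3 : ((Q : Subgroup G) ⊓ (P : Subgroup G)).relIndex ((R : Subgroup G) ⊓ (P : Subgroup G)) = 1 := by omega
  rw [relIndex_eq_one] at h3
  apply le_antisymm h1
  rw [inf_comm (P : Subgroup G) (R : Subgroup G), inf_comm (P : Subgroup G) (Q : Subgroup G)]
  exact h3

theorem mem_of_mem_normalizer {P Q : Sylow 3 G} {u : G} (hu : u ∈ (P : Subgroup G))
    (h : u ∈ normalizer ((Q : Subgroup G) : Set G)) : u ∈ (Q : Subgroup G) := by
  have h1 : (P : Subgroup G) ⊓ normalizer ((Q : Subgroup G) : Set G) = (P : Subgroup G) ⊓ Q :=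
    P.2.inf_normalizer_sylow Q
  have h2 : u ∈ (P : Subgroup G) ⊓ normalizer ((Q : Subgroup G) : Set G) := mem_inf.2 ⟨hu, h⟩
  rw [h1] at h2
  exact (mem_inf.1 h2).2

theorem stab_subgroupOf (P : Sylow 3 G) (K : Subgroup G) :
    (normalizer ((P : Subgroup G) : Set G)).relIndex K = (MulAction.orbit K P).ncard := by
  have h : MulAction.stabilizer K P = (normalizer ((P : Subgroup G) : Set G)).subgroupOf K := by
    ext x
    rw [mem_subgroupOf, MulAction.mem_stabilizer_iff]
    exact Sylow.smul_eq_iff_mem_normalizer (g := (x : G)) (P := P)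
  rw [relIndex, ← h, MulAction.index_stabilizer]

theorem smul_inter (g : G) (P Q : Sylow 3 G) :
    ((g • P : Sylow 3 G) : Subgroup G) ⊓ ((g • Q : Sylow 3 G) : Subgroup G) =
      MulAut.conj g • ((P : Subgroup G) ⊓ (Q : Subgroup G)) := by
  rw [Sylow.coe_subgroup_smul, Sylow.coe_subgroup_smul, Subgroup.smul_inf]

theorem mem_norm_of_smul_eq {g : G} {D : Subgroup G} (h : MulAut.conj g • D = D) :
    g ∈ normalizer (D : Set G) := by
  rw [mem_normalizer_iff]
  intro x
  constructor
  · intro hx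
    rw [← h]
    have := Subgroup.smul_mem_pointwise_smul x (MulAut.conj g) D hx
    simpa [MulAut.smul_def] using this
  · intro hx
    rw [← h] at hx
    have h2 : MulAut.conj g • x ∈ MulAut.conj g • D := by simpa [MulAut.smul_def] using hx
    exact (Subgroup.smul_mem_pointwise_smul_iff).1 h2

theorem norm_inter_top (h22 : Nat.card (Sylow 3 G) = 22) {P Q : Sylow 3 G} (hPQ : P ≠ Q) :
    normalizer (((P : Subgroup G) ⊓ (Q : Subgroup G) : Subgroup G) : Set G) = ⊤ := by
  classical
  have : Fintype (Sylow 3 G) := Fintype.ofFinite _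
  set D : Subgroup G := (P : Subgroup G) ⊓ (Q : Subgroup G) with hD
  set H : Subgroup G := normalizer (D : Set G) with hH
  set NP : Subgroup G := normalizer ((P : Subgroup G) : Set G) with hNP
  set NQ : Subgroup G := normalizer ((Q : Subgroup G) : Set G) with hNQ
  have hPH : (P : Subgroup G) ≤ H := sylow_le_normalizer h22 hPQ
  -- all Sylow subgroups containing D are in H
  have hRH : ∀ R : Sylow 3 G, D ≤ (R : Subgroup G) → (R : Subgroup G) ≤ H := by
    intro R hR
    by_cases h : P = R
    · rw [← h]; exact hPH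
    · have h1 := sylow_le_normalizer h22 (Ne.symm h)
      rw [inf_comm, inter_eq h22 hPQ h hR] at h1
      exact h1
  -- orbit of P under H
  have horb1 : MulAction.orbit H P = {R : Sylow 3 G | D ≤ (R : Subgroup G)} := by
    ext R
    constructor
    · rintro ⟨⟨h, hh⟩, rfl⟩
      change D ≤ ((h • P : Sylow 3 G) : Subgroup G)
      rw [Sylow.coe_subgroup_smul]
      intro x hx
      rw [mem_pointwise_smul_iff_inv_smul_mem]
      have h1 : h⁻¹ * x * h⁻¹⁻¹ ∈ D := (mem_normalizer_iff.1 (H.inv_mem hh) x).1 hx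
      have h2 := (mem_inf.1 h1).1
      simpa [MulAut.smul_def] using h2
    · intro hR
      have hRH' := hRH R hR
      obtain ⟨g, hg⟩ := MulAction.exists_smul_eq H (P.subtype hPH) (R.subtype hRH')
      refine ⟨g, ?_⟩
      have h1 : (g • P : Sylow 3 G).subtype (Sylow.smul_le hPH g) = R.subtype hRH' := by
        rw [← hg]; exact (Sylow.smul_subtype hPH g).symm
      exact Sylow.subtype_injective h1
  have horb2 : MulAction.orbit (NP ⊓ H : Subgroup G) Q = {R : Sylow 3 G | D ≤ (R : Subgroup G)} \ {P} := by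
    ext R
    constructor
    · rintro ⟨⟨h, hh⟩, rfl⟩
      have hh1 := (mem_inf.1 hh).1
      have hh2 := (mem_inf.1 hh).2
      refine ⟨?_, ?_⟩
      · change D ≤ ((h • Q : Sylow 3 G) : Subgroup G)
        rw [Sylow.coe_subgroup_smul]
        intro x hx
        rw [mem_pointwise_smul_iff_inv_smul_mem]
        have h1 : h⁻¹ * x * h⁻¹⁻¹ ∈ D := (mem_normalizer_iff.1 (H.inv_mem hh2) x).1 hx
        have h2 := (mem_inf.1 h1).2
        simpa [MulAut.smul_def] using h2
      · intro h1
        change h • Q = P at h1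
        have h2 : h • P = P := Sylow.smul_eq_iff_mem_normalizer.2 hh1
        exact hPQ (smul_left_cancel h (h2.trans h1.symm))
    · rintro ⟨hR, hRP⟩
      have hPR : P ≠ R := fun h => hRP h.symm
      obtain ⟨g, hg1, hg2⟩ := two_trans h22 hPQ hPR
      have h1 : g ∈ NP := Sylow.smul_eq_iff_mem_normalizer.1 hg1
      have h2 : g ∈ H := by
        apply mem_norm_of_smul_eq
        rw [hD, ← smul_inter, hg1, hg2]
        exact inter_eq h22 hPQ hPR hR
      exact ⟨⟨g, mem_inf.2 ⟨h1, h2⟩⟩, hg2⟩
  have horb3 : MulAction.orbit NP Q = {P}ᶜ := by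
    ext R
    constructor
    · rintro ⟨⟨h, hh⟩, rfl⟩ h1
      change h • Q = P at h1
      have h2 : h • P = P := Sylow.smul_eq_iff_mem_normalizer.2 hh
      exact hPQ (smul_left_cancel h (h2.trans h1.symm))
    · intro hRP
      obtain ⟨g, hg1, hg2⟩ := two_trans h22 hPQ (fun h : P = R => hRP h.symm)
      exact ⟨⟨g, Sylow.smul_eq_iff_mem_normalizer.1 hg1⟩, hg2⟩
  set k := ({R : Sylow 3 G | D ≤ (R : Subgroup G)} : Set (Sylow 3 G)).ncard with hk
  have hPin : P ∈ {R : Sylow 3 G | D ≤ (R : Subgroup G)} := (inf_le_left : D ≤ P)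
  have e1 : NP.relIndex H = k := by rw [hNP, stab_subgroupOf, horb1]
  have e2 : NQ.relIndex (NP ⊓ H) = k - 1 := by
    rw [hNQ, stab_subgroupOf, horb2, Set.ncard_sdiff_singleton_of_mem hPin]
  have e3 : NQ.relIndex NP = 21 := by
    rw [hNQ, stab_subgroupOf, horb3, Set.ncard_compl, h22, Set.ncard_singleton]
  have e4 : NP.index = 22 := by rw [← h22]; exact (P.card_eq_index_normalizer).symm
  have hle : NQ ⊓ NP ≤ NP ⊓ H := by
    apply le_inf inf_le_right
    intro g hg
    apply mem_norm_of_smul_eq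
    have h1 : g • Q = Q := Sylow.smul_eq_iff_mem_normalizer.2 (mem_inf.1 hg).1
    have h2 : g • P = P := Sylow.smul_eq_iff_mem_normalizer.2 (mem_inf.1 hg).2
    rw [hD, ← smul_inter, h1, h2]
  have e5 : (NQ ⊓ NP).relIndex (NP ⊓ H) = k - 1 := by
    have h1 : (NQ ⊓ NP).relIndex (NP ⊓ H) = (NQ ⊓ (NP ⊓ H)).relIndex (NP ⊓ H) := by
      congr 1
      apply le_antisymm
      · exact le_inf inf_le_left hle
      · exact inf_le_inf_left _ inf_le_left
    rw [h1, inf_relIndex_right, e2]
  have e6 : (k - 1) * (NP ⊓ H).relIndex NP = 21 := by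
    rw [← e5, relIndex_mul_relIndex _ _ _ hle inf_le_left, inf_relIndex_right, e3]
  have e7 : (k - 1) * (k * H.index) = 462 := by
    rw [← e5, ← e1]
    have h1 : NP.relIndex H = (NP ⊓ H).relIndex H := (inf_relIndex_right _ _).symm
    rw [h1, relIndex_mul_index inf_le_right, relIndex_mul_index hle,
      ← relIndex_mul_index (inf_le_right : NQ ⊓ NP ≤ NP), inf_relIndex_right, e3, e4]
  -- k - 1 is not one
  have e8 : k - 1 ≠ 1 := by
    intro h1
    have h2 : ({R : Sylow 3 G | D ≤ (R : Subgroup G)} \ {P} : Set (Sylow 3 G)).ncard = 1 := by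
      rw [Set.ncard_sdiff_singleton_of_mem hPin, ← hk, h1]
    rw [Set.ncard_eq_one] at h2
    obtain ⟨R, hR⟩ := h2
    have hPQ' : ¬ (P : Subgroup G) ≤ Q := fun h => hPQ (Sylow.ext (P.3 Q.2 h)).symm
    obtain ⟨u, huP, huQ⟩ := SetLike.not_le_iff_exists.1 hPQ'
    have huNP : u ∈ NP := le_normalizer huP
    have h3 : Q ∈ ({R} : Set (Sylow 3 G)) := by
      rw [← hR]; exact ⟨(inf_le_right : D ≤ Q), fun h => hPQ h.symm⟩
    have h4 : u • Q ∈ ({R} : Set (Sylow 3 G)) := by
      rw [← hR, ← horb2]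
      exact ⟨⟨u, mem_inf.2 ⟨huNP, hPH huP⟩⟩, rfl⟩
    have h5 : u • Q = Q := by
      rw [Set.mem_singleton_iff] at h3 h4
      rw [h4, ← h3]
    exact huQ (mem_of_mem_normalizer huP (Sylow.smul_eq_iff_mem_normalizer.1 h5))
  have e9 : (k - 1) ∈ Nat.divisors 21 := by
    rw [Nat.mem_divisors]; exact ⟨Dvd.intro _ e6, by norm_num⟩
  have h21 : Nat.divisors 21 = {1, 3, 7, 21} := by decide
  rw [h21] at e9
  simp only [Finset.mem_insert, Finset.mem_singleton] at e9
  rcases e9 with h | h | h | h
  · exact absurd h e8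
  · have : k = 4 := by omega
    rw [h, this] at e7; omega
  · have : k = 8 := by omega
    rw [h, this] at e7; omega
  · have : k = 22 := by omega
    rw [h, this] at e7
    exact index_eq_one.1 (by omega)

end Cfsg.Agent.Syl22
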