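import Mathlib
import Cfsg.Agent.S0675
import Cfsg.Agent.S0547
import Cfsg.Agent.S0548

/-! Transitive 3'-groups of degree 7; commuting elements. -/

set_option autoImplicit false

namespace Cfsg.Agent.Syl22

open Cfsg.Agent

theorem card_dvd_of_seven {α : Type*} [Fintype α] [DecidableEq α] (hα : Fintype.card α = 7)
    (L : Subgroup (Equiv.Perm α)) [MulAction.IsPretransitive L α] (h3 : ¬ 3 ∣ Nat.card L) : Nat.card L ∣ 14 := by
  have hp7 : (Fintype.card α).Prime := by rw [hα]; norm_num
  rcases Cfsg.Agent.S0675.result hp7 L with hs | h2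
  · have hprim : MulAction.IsPreprimitive L α := MulAction.IsPreprimitive.of_prime_card (by rw [Nat.card_eq_fintype_card]; exact hp7)
    have hne : Nonempty α := Fintype.card_pos_iff.1 (by omega)
    obtain ⟨ω⟩ := hne
    have hLnt : Nontrivial L := by
      by_contra hn
      rw [not_nontrivial_iff_subsingleton] at hn
      obtain ⟨b, hb⟩ : ∃ b, b ≠ ω := Fintype.exists_ne_of_one_lt_card (by omega) ω
      obtain ⟨g, hg⟩ := MulAction.exists_smul_eq L ω b
      rw [Subsingleton.elim g 1, one_smul] at hg
      exact hb hg.symm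
    obtain ⟨M, hM⟩ := H10.exists_isMinNormal (G := L)
    have hMn : M.Normal := hM.1
    have : Nonempty α := ⟨ω⟩
    obtain ⟨hMtr, hMfree, p, d, hp, hd, hcard, hMcard⟩ := Cfsg.Agent.S0547.result hprim M hM.2.1 hM.2.2
    obtain ⟨hc, hz, -⟩ := Cfsg.Agent.S0548.result hprim M hM.2.1 hM.2.2 ω
    have hM7 : Nat.card M = 7 := by rw [hMcard, ← hcard, Nat.card_eq_fintype_card, hα]
    have h1 := hc.card_mul_card
    rw [hM7] at h1
    have hcyc : IsCyclic M := by
      have : Fact (Nat.Prime 7) := ⟨by norm_num⟩
      exact isCyclic_of_prime_card hM7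
    have h4 : Nat.card (MulAction.stabilizer L ω) ∣ 6 := by
      have h5 : Nat.card (MulAut M) = 6 := by
        rw [IsCyclic.card_mulAut, hM7]; decide
      rw [← h5]
      let f : MulAction.stabilizer L ω →* MulAut M := (MulAut.conjNormal (H := M)).comp (MulAction.stabilizer L ω).subtype
      apply Subgroup.card_dvd_of_injective f
      rw [injective_iff_map_eq_one]
      intro x hx
      have h6 : (x : L) ∈ MulAction.stabilizer L ω ⊓ Subgroup.centralizer (M : Set L) := by
        refine Subgroup.mem_inf.2 ⟨x.2, ?_⟩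
        rw [Subgroup.mem_centralizer_iff]
        intro m hm
        have h7 := congrArg (fun φ : MulAut M => ((φ ⟨m, hm⟩ : M) : L)) hx
        have h8 : (x : L) * m * (x : L)⁻¹ = m := h7
        rw [mul_inv_eq_iff_eq_mul] at h8
        exact h8.symm
      rw [hz, Subgroup.mem_bot] at h6
      exact Subtype.ext h6
    rw [← h1] at h3 ⊢
    have h5 : Nat.card (MulAction.stabilizer L ω) ∈ Nat.divisors 6 := by
      rw [Nat.mem_divisors]; exact ⟨h4, by norm_num⟩
    have h6 : Nat.divisors 6 = {1, 2, 3, 6} := by decide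
    rw [h6] at h5
    simp only [Finset.mem_insert, Finset.mem_singleton] at h5
    rcases h5 with h5 | h5 | h5 | h5 <;> rw [h5] at h3 ⊢
    · norm_num
    · exact absurd (by norm_num) h3
    · exact absurd (by norm_num) h3
  · exfalso
    apply h3
    have h4 : MulAction.IsPretransitive L (Fin 2 ↪ α) := h2
    have h5 : Nat.card (Fin 2 ↪ α) = 42 := by
      rw [Nat.card_eq_fintype_card, Fintype.card_embedding_eq, hα, Fintype.card_fin]
      decide
    have h6 : Nonempty (Fin 2 ↪ α) := by
      by_contra h7
      rw [not_nonempty_iff] at h7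
      rw [Nat.card_of_isEmpty] at h5
      omega
    obtain ⟨e⟩ := h6
    have h7 := @MulAction.index_stabilizer_of_transitive L (Fin 2 ↪ α) _ _ e h4
    rw [h5] at h7
    have h8 := Subgroup.index_dvd_card (MulAction.stabilizer L e)
    rw [h7] at h8
    exact (by norm_num : 3 ∣ 42).trans h8

/-- commuting elements of orders `r` (prime) and `11` on 22 points -/
theorem not_commute {G α : Type*} [Group G] [Finite G] [MulAction G α] [FaithfulSMul G α] (h22 : Nat.card α = 22)
    {y z : G} {r : ℕ} (hr : r = 3 ∨ r = 7) (hy : orderOf y = r) (hz : orderOf z = 11) (hyz : Commute y z)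
    (hzf : ∀ a : α, z • a ≠ a) : False := by
  classical
  have hfin : Finite α := Nat.finite_of_card_ne_zero (by omega)
  have hrp : Fact r.Prime := ⟨by rcases hr with rfl | rfl <;> norm_num⟩
  have h11 : Fact (Nat.Prime 11) := ⟨by norm_num⟩
  have hpy : IsPGroup r (Subgroup.zpowers y) := IsPGroup.of_card (n := 1) (by rw [Nat.card_zpowers, hy, pow_one])
  have hpz : IsPGroup 11 (Subgroup.zpowers z) := IsPGroup.of_card (n := 1) (by rw [Nat.card_zpowers, hz, pow_one])
  have h1 := hpy.card_modEq_card_fixedPoints α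
  set F := MulAction.fixedPoints (Subgroup.zpowers y) α with hF
  have hFmem : ∀ a : α, a ∈ F ↔ y • a = a := by
    intro a
    constructor
    · intro ha; exact ha ⟨y, Subgroup.mem_zpowers y⟩
    · rintro ha ⟨_, n, rfl⟩
      have h2 : y ∈ MulAction.stabilizer G a := ha
      exact (MulAction.stabilizer G a).zpow_mem h2 n
  -- z acts on F
  have hzF : ∀ (x : Subgroup.zpowers z) (a : α), a ∈ F → (x : G) • a ∈ F := by
    rintro ⟨_, n, rfl⟩ a ha
    rw [hFmem] at ha ⊢
    have h2 : y * z ^ n = z ^ n * y := (hyz.zpow_right n).eq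
    change y • z ^ n • a = z ^ n • a
    rw [← mul_smul, h2, mul_smul, ha]
  let iA : MulAction (Subgroup.zpowers z) F :=
    { smul := fun x a => ⟨(x : G) • (a : α), hzF x a a.2⟩
      one_smul := fun a => Subtype.ext (one_smul G (a : α))
      mul_smul := fun x x' a => Subtype.ext (mul_smul (x : G) (x' : G) (a : α)) }
  have h2 := hpz.card_modEq_card_fixedPoints F
  have h3 : Nat.card (MulAction.fixedPoints (Subgroup.zpowers z) F) = 0 := by
    rw [Nat.card_eq_zero]
    left
    constructor
    rintro ⟨a, ha⟩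
    exact hzf a (congrArg Subtype.val (ha ⟨z, Subgroup.mem_zpowers z⟩))
  rw [h3] at h2
  rw [h22] at h1
  have h4 : Nat.card F ≤ 22 := by rw [← h22]; exact Finite.card_subtype_le _
  have h5 : Nat.card F ≠ 22 := by
    intro h5
    have h6 : F = Set.univ := by
      rw [Set.eq_univ_iff_ncard, ← Nat.card_coe_set_eq, h5, h22]
    have h7 : y = 1 := FaithfulSMul.eq_of_smul_eq_smul (α := α) (fun a => by
      rw [one_smul]
      exact (hFmem a).1 (h6 ▸ Set.mem_univ a))
    rw [h7, orderOf_one] at hy
    rcases hr with rfl | rfl <;> omega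
  have h6 : Nat.card F % 11 = 0 := h2
  have h7 : Nat.card F = 0 ∨ Nat.card F = 11 := by omega
  rcases hr with rfl | rfl <;> rcases h7 with h7 | h7 <;> rw [h7] at h1 <;> exact absurd h1 (by decide)

end Cfsg.Agent.Syl22
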