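import Cfsg.Agent.FT.Syl22
import Cfsg.Agent.FT.Syl22B
import Cfsg.Agent.Transfer.NPC

/-! Groups with 22 Sylow 3-subgroups acting faithfully. -/

set_option autoImplicit false

open scoped Pointwise

namespace Cfsg.Agent.Syl22

open Subgroup Cfsg.Agent

variable {G : Type*} [Group G] [Finite G]

theorem relIndex_norm (h22 : Nat.card (Sylow 3 G) = 22) {P Q : Sylow 3 G} (hPQ : P ≠ Q) :
    (normalizer ((Q : Subgroup G) : Set G)).relIndex (normalizer ((P : Subgroup G) : Set G)) = 21 := by
  classical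
  have : Fintype (Sylow 3 G) := Fintype.ofFinite _
  have horb3 : MulAction.orbit (normalizer ((P : Subgroup G) : Set G)) Q = {P}ᶜ := by
    ext R
    constructor
    · rintro ⟨⟨h, hh⟩, rfl⟩ h1
      change h • Q = P at h1
      have h2 : h • P = P := Sylow.smul_eq_iff_mem_normalizer.2 hh
      exact hPQ (smul_left_cancel h (h2.trans h1.symm))
    · intro hRP
      obtain ⟨g, hg1, hg2⟩ := two_trans h22 hPQ (fun h : P = R => hRP h.symm)
      exact ⟨⟨g, Sylow.smul_eq_iff_mem_normalizer.1 hg1⟩, hg2⟩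
  rw [stab_subgroupOf, horb3, Set.ncard_compl, h22, Set.ncard_singleton]

theorem card_mul_relIndex' (H K : Subgroup G) : Nat.card (K ⊓ H : Subgroup G) * K.relIndex H = Nat.card H := by
  have h1 := relIndex_mul_relIndex ⊥ (K ⊓ H) H bot_le inf_le_right
  rwa [relIndex_bot_left, relIndex_bot_left, inf_relIndex_right] at h1

theorem relIndex_mul_card' {H K : Subgroup G} (h : H ≤ K) : Nat.card H * H.relIndex K = Nat.card K := by
  have h1 := card_mul_relIndex' K H
  rwa [inf_eq_left.2 h] at h1

theorem centralizer_relIndex (P : Subgroup G) : 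
    (centralizer (P : Set G)).relIndex (normalizer (P : Set G)) ∣ Nat.card (MulAut P) := by
  have h1 := P.normalizerMonoidHom_ker
  have h2 : (centralizer (P : Set G)).relIndex (normalizer (P : Set G)) = Nat.card P.normalizerMonoidHom.range := by
    rw [relIndex, ← h1, index_ker]
  rw [h2]
  exact card_subgroup_dvd_card _

theorem inter_eq_bot (h22 : Nat.card (Sylow 3 G) = 22) (hf : ∀ g : G, (∀ R : Sylow 3 G, g • R = R) → g = 1)
    {P Q : Sylow 3 G} (hPQ : P ≠ Q) : (P : Subgroup G) ⊓ (Q : Subgroup G) = ⊥ := by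
  rw [eq_bot_iff]
  intro d hd
  rw [mem_bot]
  have hn : ((P : Subgroup G) ⊓ (Q : Subgroup G) : Subgroup G).Normal :=
    normalizer_eq_top_iff.1 (norm_inter_top h22 hPQ)
  apply hf
  intro R
  obtain ⟨g, hg⟩ := MulAction.exists_smul_eq G P R
  have h1 : d ∈ (R : Subgroup G) := by
    rw [← hg, Sylow.coe_subgroup_smul, mem_pointwise_smul_iff_inv_smul_mem]
    have h2 := hn.conj_mem d hd g⁻¹
    have h3 := (mem_inf.1 h2).1
    simpa [MulAut.smul_def] using h3
  exact Sylow.smul_eq_iff_mem_normalizer.2 (le_normalizer h1)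

theorem card_three (h22 : Nat.card (Sylow 3 G) = 22) (hf : ∀ g : G, (∀ R : Sylow 3 G, g • R = R) → g = 1)
    {P Q : Sylow 3 G} (hPQ : P ≠ Q) : Nat.card (P : Subgroup G) = 3 := by
  have h1 := relIndex_three h22 hPQ
  rw [← inf_relIndex_right, inf_comm, inter_eq_bot h22 hf hPQ, relIndex_bot_left] at h1
  exact h1

/-- the order of `G` -/
theorem card_bound (h22 : Nat.card (Sylow 3 G) = 22) (hf : ∀ g : G, (∀ R : Sylow 3 G, g • R = R) → g = 1) :
    ∃ t : ℕ, t ∣ 4 ∧ Nat.card G = 462 * t := by
  classical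
  have hfin : Finite (Sylow 3 G) := inferInstance
  obtain ⟨P, Q, hPQ⟩ : ∃ P Q : Sylow 3 G, P ≠ Q := by
    have : Nontrivial (Sylow 3 G) := Finite.one_lt_card_iff_nontrivial.1 (by omega)
    exact exists_pair_ne _
  have hP3 := card_three h22 hf hPQ
  set NP : Subgroup G := normalizer ((P : Subgroup G) : Set G) with hNP
  set NQ : Subgroup G := normalizer ((Q : Subgroup G) : Set G) with hNQ
  set C : Subgroup G := centralizer ((P : Subgroup G) : Set G) with hC
  have hCN : C ≤ NP := centralizer_le_normalizer _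
  have hPcyc : IsCyclic (P : Subgroup G) := isCyclic_of_prime_card hP3
  have hPC : (P : Subgroup G) ≤ C := by
    intro x hx
    rw [mem_centralizer_iff]
    intro y hy
    exact congrArg Subtype.val (IsCyclic.commGroup.mul_comm (⟨y, hy⟩ : (P : Subgroup G)) ⟨x, hx⟩)
  have he : C.relIndex NP ∣ 2 := by
    have h1 := centralizer_relIndex (P : Subgroup G)
    rw [IsCyclic.card_mulAut, hP3] at h1
    exact h1
  have hi : NQ.relIndex NP = 21 := relIndex_norm h22 hPQ
  have hl : NQ.relIndex C ≤ 21 := by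
    rw [← hi]
    exact relIndex_le_of_le_right hCN (by rw [hi]; norm_num)
  have hii : NQ.relIndex C * C.relIndex NP = C.relIndex (NQ ⊓ NP) * 21 := by
    have h1 := relIndex_mul_relIndex (NQ ⊓ C) C NP inf_le_right hCN
    have h2 := relIndex_mul_relIndex (NQ ⊓ C) (NQ ⊓ NP) NP (inf_le_inf_left _ hCN) inf_le_right
    rw [inf_relIndex_right] at h1 h2
    have h3 : (NQ ⊓ C).relIndex (NQ ⊓ NP) = C.relIndex (NQ ⊓ NP) := by
      have h4 : NQ ⊓ C = C ⊓ (NQ ⊓ NP) := by
        apply le_antisymm
        · exact le_inf inf_le_right (inf_le_inf_left _ hCN)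
        · exact le_inf (inf_le_right.trans inf_le_left) inf_le_left
      rw [h4, inf_relIndex_right]
    rw [h1, ← h2, h3, hi]
  have hl21 : NQ.relIndex C = 21 := by
    have h1 : C.relIndex (NQ ⊓ NP) ≤ C.relIndex NP :=
      relIndex_le_of_le_right inf_le_right (fun h => by rw [h] at he; norm_num at he)
    have h2 : C.relIndex (NQ ⊓ NP) ≠ 0 := by
      intro h0
      rw [h0, zero_mul] at hii
      have h5 := card_mul_relIndex' C NQ
      have h6 : 0 < Nat.card C := Nat.card_pos
      rcases Nat.mul_eq_zero.1 hii with h7 | h7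
      · rw [h7, mul_zero] at h5; omega
      · rw [h7] at he; norm_num at he
    have h3 : C.relIndex NP = 1 ∨ C.relIndex NP = 2 := (Nat.dvd_prime Nat.prime_two).1 he
    rcases h3 with h3 | h3
    · rw [h3] at hii h1
      omega
    · rw [h3] at hii h1
      have h4 : C.relIndex (NQ ⊓ NP) = 1 ∨ C.relIndex (NQ ⊓ NP) = 2 := by omega
      rcases h4 with h4 | h4 <;> rw [h4] at hii <;> omega
  -- C is transitive on the other Sylow subgroups
  have horbC : ∀ R : Sylow 3 G, R ≠ P → ∃ c ∈ C, c • Q = R := by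
    have h1 : (MulAction.orbit C Q).ncard = 21 := by rw [← stab_subgroupOf, hl21]
    have h2 : MulAction.orbit C Q = {P}ᶜ := by
      apply Set.eq_of_subset_of_ncard_le
      · rintro R ⟨⟨h, hh⟩, rfl⟩ h1
        change h • Q = P at h1
        have h2 : h • P = P := Sylow.smul_eq_iff_mem_normalizer.2 (hCN hh)
        exact hPQ (smul_left_cancel h (h2.trans h1.symm))
      · rw [h1, Set.ncard_compl, h22, Set.ncard_singleton]
      · exact Set.toFinite _
    intro R hR
    have h3 : R ∈ MulAction.orbit C Q := by rw [h2]; exact hR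
    obtain ⟨⟨c, hc⟩, hcR⟩ := h3
    exact ⟨c, hc, hcR⟩
  -- the normal 3-complement of C
  have hnpc : Cfsg.HasNormalPComplement 3 C := by
    apply Transfer.hasNPC_of_normalizer_le_centralizer (P.subtype hPC)
    intro x _
    rw [mem_centralizer_iff]
    intro y hy
    have hy' : (y : G) ∈ (P : Subgroup G) := hy
    exact Subtype.ext (mem_centralizer_iff.1 x.2 y hy')
  obtain ⟨K₀, hK₀n, hK₀c⟩ := (Transfer.hasNPC_iff_sylow (P.subtype hPC)).1 hnpc
  obtain ⟨hK₀cop, j, hK₀idx⟩ := Transfer.card_index_of_isComplement' hK₀c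
  have hK₀card : Nat.card K₀ * 3 = Nat.card C := by
    have h1 := hK₀c.card_mul_card
    have h2 : Nat.card ((P.subtype hPC : Sylow 3 C) : Subgroup C) = 3 := by
      rw [Sylow.coe_subtype]
      exact (Nat.card_congr (subgroupOfEquivOfLe hPC).toEquiv).trans hP3
    rwa [h2] at h1
  set K : Subgroup G := K₀.map C.subtype with hK
  have hKcard : Nat.card K = Nat.card K₀ := by
    rw [hK]
    exact (Nat.card_congr (K₀.equivMapOfInjective _ C.subtype_injective).toEquiv).symm
  have hKC : K ≤ C := map_subtype_le K₀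
  have hmemK : ∀ x ∈ C, (orderOf x).Coprime 3 → x ∈ K := by
    intro x hx hxo
    refine ⟨⟨x, hx⟩, ?_, rfl⟩
    rw [SetLike.mem_coe, Transfer.mem_iff_coprime_of_card_of_index hK₀cop hK₀idx]
    rwa [Subgroup.orderOf_mk]
  have hCQ : Nat.card (NQ ⊓ C : Subgroup G) * 21 = Nat.card C := by
    rw [← hl21]; exact card_mul_relIndex' C NQ
  have hK7 : Nat.card (NQ ⊓ C : Subgroup G) * 7 = Nat.card K := by rw [hKcard]; omega
  have hKcop : (Nat.card K).Coprime 3 := by rw [hKcard]; exact hK₀cop
  have hNQK : NQ ⊓ K = NQ ⊓ C := by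
    apply le_antisymm (inf_le_inf_left _ hKC)
    intro x hx
    refine mem_inf.2 ⟨(mem_inf.1 hx).1, hmemK x (mem_inf.1 hx).2 ?_⟩
    have h1 : orderOf x ∣ Nat.card (NQ ⊓ C : Subgroup G) := by
      rw [← Subgroup.orderOf_mk x hx]; exact orderOf_dvd_natCard _
    exact Nat.Coprime.coprime_dvd_left (h1.trans (Dvd.intro _ hK7)) hKcop
  have hKidx : NQ.relIndex K = 7 := by
    have h1 := card_mul_relIndex' K NQ
    rw [hNQK, ← hK7] at h1
    exact Nat.eq_of_mul_eq_mul_left Nat.card_pos h1
  -- faithful action of K on its orbit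
  have hfaith : ∀ x ∈ K, (∀ R ∈ MulAction.orbit K Q, x • R = R) → x = 1 := by
    intro x hx hxR
    apply hf
    intro R
    by_cases hRP : R = P
    · rw [hRP]
      exact Sylow.smul_eq_iff_mem_normalizer.2 (hCN (hKC hx))
    · obtain ⟨c, hc, rfl⟩ := horbC R hRP
      obtain ⟨u, hu, k, hk, hck⟩ : ∃ u ∈ (P : Subgroup G), ∃ k ∈ K, c = u * k := by
        have h1 := hK₀c.symm.mul_eq
        have h2 : (⟨c, hc⟩ : C) ∈ (((P.subtype hPC : Sylow 3 C) : Subgroup C) : Set C) * (K₀ : Set C) := by
          rw [h1]; exact Set.mem_univ _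
        obtain ⟨a, ha, b, hb, hab⟩ := Set.mem_mul.1 h2
        exact ⟨a, ha, b, ⟨b, hb, rfl⟩, (congrArg Subtype.val hab).symm⟩
      have h3 : x * u = u * x := (mem_centralizer_iff.1 (hKC hx) u hu).symm
      rw [hck, mul_smul, ← mul_smul x, h3, mul_smul, hxR (k • Q) ⟨⟨k, hk⟩, rfl⟩]
  have hK14 : Nat.card K ∣ 14 := by
    let α := MulAction.orbit K Q
    have : Fintype α := Fintype.ofFinite _
    have hα : Fintype.card α = 7 := by
      rw [← Nat.card_eq_fintype_card, Nat.card_coe_set_eq, ← stab_subgroupOf, hKidx]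
    let f := MulAction.toPermHom K α
    have hinj : Function.Injective f := by
      rw [injective_iff_map_eq_one]
      intro x hx
      apply Subtype.ext
      apply hfaith x x.2
      intro R hR
      have h1 := congrArg (fun φ : Equiv.Perm α => ((φ ⟨R, hR⟩ : α) : Sylow 3 G)) hx
      exact h1
    have hcardL : Nat.card f.range = Nat.card K :=
      (Nat.card_congr (MonoidHom.ofInjective hinj).toEquiv).symm
    have htr : MulAction.IsPretransitive f.range α := by
      constructor
      intro a b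
      obtain ⟨k, hk⟩ := MulAction.exists_smul_eq K a b
      exact ⟨⟨f k, ⟨k, rfl⟩⟩, hk⟩
    rw [← hcardL]
    apply card_dvd_of_seven hα
    rw [hcardL]
    intro h3
    have := Nat.eq_one_of_dvd_coprimes hKcop h3 (dvd_refl 3)
    omega
  -- conclusion
  have hGcard : Nat.card G = Nat.card NP * 22 := by
    have h1 := NP.card_mul_index
    have h2 : NP.index = 22 := by rw [← h22]; exact (P.card_eq_index_normalizer).symm
    rw [← h1, h2]
  have hNPcard : Nat.card C * C.relIndex NP = Nat.card NP := relIndex_mul_card' hCN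
  obtain ⟨m, hm⟩ : 7 ∣ Nat.card K := Dvd.intro_left _ hK7
  have hm2 : m ∣ 2 := by
    rw [hm] at hK14
    exact Nat.dvd_of_mul_dvd_mul_left (by norm_num : 0 < 7) (by simpa using hK14)
  refine ⟨C.relIndex NP * m, ?_, ?_⟩
  · exact Nat.mul_dvd_mul he hm2
  · rw [hGcard, ← hNPcard, ← hK₀card, ← hKcard, hm]
    ring

theorem faithful_false (h22 : Nat.card (Sylow 3 G) = 22)
    (hf : ∀ g : G, (∀ R : Sylow 3 G, g • R = R) → g = 1) : False := by
  classical
  obtain ⟨t, ht, hG⟩ := card_bound h22 hf
  have h11 : Fact (Nat.Prime 11) := ⟨by norm_num⟩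
  have htm : t ∈ Nat.divisors 4 := by rw [Nat.mem_divisors]; exact ⟨ht, by norm_num⟩
  have h4 : Nat.divisors 4 = {1, 2, 4} := by decide
  rw [h4] at htm
  simp only [Finset.mem_insert, Finset.mem_singleton] at htm
  let Z : Sylow 11 G := default
  -- order of Z
  have hZ : Nat.card (Z : Subgroup G) = 11 := by
    obtain ⟨n, hn⟩ := Z.2.exists_card_eq
    have h1 : Nat.card (Z : Subgroup G) ∣ Nat.card G := card_subgroup_dvd_card _
    have h2 := Z.card_mul_index
    have h3 := Z.not_dvd_index
    have h5 : n ≠ 0 := by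
      rintro rfl
      rw [pow_zero] at hn
      rw [hn, one_mul] at h2
      apply h3
      rw [h2, hG]
      exact Dvd.dvd.mul_right (by norm_num) t
    have h6 : n < 2 := by
      by_contra h7
      push Not at h7
      have h8 : 11 ^ 2 ∣ Nat.card G := (pow_dvd_pow 11 h7).trans (hn ▸ h1)
      rw [hG] at h8
      rcases htm with rfl | rfl | rfl <;> omega
    have : n = 1 := by omega
    rw [hn, this, pow_one]
  have hZcyc : IsCyclic (Z : Subgroup G) := isCyclic_of_prime_card hZ
  obtain ⟨⟨z, hzZ⟩, hz⟩ := hZcyc.exists_generator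
  have hzo : orderOf z = 11 := by
    rw [← Subgroup.orderOf_mk z hzZ, orderOf_eq_card_of_forall_mem_zpowers hz, hZ]
  -- z has no fixed point
  have hzf : ∀ R : Sylow 3 G, z • R ≠ R := by
    intro R hR
    have h1 : z ∈ normalizer ((R : Subgroup G) : Set G) := Sylow.smul_eq_iff_mem_normalizer.1 hR
    have h2 : orderOf z ∣ Nat.card (normalizer ((R : Subgroup G) : Set G)) := by
      rw [← Subgroup.orderOf_mk z h1]; exact orderOf_dvd_natCard _
    have h3 := (normalizer ((R : Subgroup G) : Set G)).card_mul_index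
    have h5 : (normalizer ((R : Subgroup G) : Set G)).index = 22 := by
      rw [← h22]; exact (R.card_eq_index_normalizer).symm
    rw [h5, hG] at h3
    rw [hzo] at h2
    obtain ⟨c, hc⟩ := h2
    rw [hc] at h3
    rcases htm with rfl | rfl | rfl <;> omega
  have hfs : FaithfulSMul G (Sylow 3 G) := by
    constructor
    intro a b hab
    have h1 : b⁻¹ * a = 1 := by
      apply hf
      intro R
      rw [mul_smul, hab R, inv_smul_smul]
    exact (inv_mul_eq_one.1 h1).symm
  -- 3 and 7 do not divide the order of N(Z)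
  have hr : ∀ r : ℕ, r = 3 ∨ r = 7 → ¬ r ∣ Nat.card (normalizer ((Z : Subgroup G) : Set G)) := by
    intro r hr hdvd
    have hrp : Fact r.Prime := ⟨by rcases hr with rfl | rfl <;> norm_num⟩
    obtain ⟨⟨y, hyN⟩, hy⟩ := exists_prime_orderOf_dvd_card' r hdvd
    have hyo : orderOf y = r := by rw [← Subgroup.orderOf_mk y hyN]; exact hy
    have hcomm : Commute y z := by
      have h1 : (Z : Subgroup G).normalizerMonoidHom ⟨y, hyN⟩ = 1 := by
        rw [← orderOf_eq_one_iff]
        have h2 : orderOf ((Z : Subgroup G).normalizerMonoidHom ⟨y, hyN⟩) ∣ r := by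
          rw [← hy]; exact orderOf_map_dvd _ _
        have h3 : orderOf ((Z : Subgroup G).normalizerMonoidHom ⟨y, hyN⟩) ∣ 10 := by
          have h5 : Nat.card (MulAut (Z : Subgroup G)) = 10 := by
            rw [IsCyclic.card_mulAut, hZ]; decide
          rw [← h5]; exact orderOf_dvd_natCard _
        have h5 : Nat.Coprime r 10 := by rcases hr with rfl | rfl <;> decide
        exact Nat.eq_one_of_dvd_coprimes h5 h2 h3
      have h2 := congrArg (fun φ : MulAut (Z : Subgroup G) => ((φ ⟨z, hzZ⟩ : (Z : Subgroup G)) : G)) h1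
      have h3 : y * z * y⁻¹ = z := h2
      exact mul_inv_eq_iff_eq_mul.1 h3
    exact not_commute h22 hr hyo hzo hcomm hzf
  have hidx : ∀ r : ℕ, r = 3 ∨ r = 7 → r ∣ (normalizer ((Z : Subgroup G) : Set G)).index := by
    intro r hr'
    have hrp : r.Prime := by rcases hr' with rfl | rfl <;> norm_num
    have h1 := (normalizer ((Z : Subgroup G) : Set G)).card_mul_index
    have h2 : r ∣ Nat.card G := by
      rw [hG]
      apply Dvd.dvd.mul_right
      rcases hr' with rfl | rfl <;> norm_num
    rw [← h1] at h2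
    exact (hrp.dvd_mul.1 h2).resolve_left (hr r hr')
  have h3 := hidx 3 (Or.inl rfl)
  have h7 := hidx 7 (Or.inr rfl)
  have hmod := card_sylow_modEq_one 11 G
  rw [Z.card_eq_index_normalizer] at hmod
  change (normalizer ((Z : Subgroup G) : Set G)).index % 11 = 1 at hmod
  have hdvd : (normalizer ((Z : Subgroup G) : Set G)).index ∣ (Z : Subgroup G).index := index_dvd_of_le le_normalizer
  have hZidx := (Z : Subgroup G).card_mul_index
  rw [hZ, hG] at hZidx
  have h168 : (Z : Subgroup G).index ∣ 168 := by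
    rcases htm with rfl | rfl | rfl
    · have : (Z : Subgroup G).index = 42 := by omega
      rw [this]; norm_num
    · have : (Z : Subgroup G).index = 84 := by omega
      rw [this]; norm_num
    · have : (Z : Subgroup G).index = 168 := by omega
      rw [this]
  obtain ⟨w, hw⟩ : 21 ∣ (normalizer ((Z : Subgroup G) : Set G)).index :=
    Nat.Coprime.mul_dvd_of_dvd_of_dvd (by decide : Nat.Coprime 3 7) h3 h7
  have hw168 := hdvd.trans h168
  rw [hw] at hw168 hmod
  have hw8 : w ∣ 8 := by
    have : 21 * w ∣ 21 * 8 := by simpa using hw168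
    exact Nat.dvd_of_mul_dvd_mul_left (by norm_num) this
  have hwm : w ∈ Nat.divisors 8 := by rw [Nat.mem_divisors]; exact ⟨hw8, by norm_num⟩
  have h8 : Nat.divisors 8 = {1, 2, 4, 8} := by decide
  rw [h8] at hwm
  simp only [Finset.mem_insert, Finset.mem_singleton] at hwm
  rcases hwm with rfl | rfl | rfl | rfl <;> omega

end Cfsg.Agent.Syl22
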