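import Cfsg.Agent.S3360

/-! Affine structure of a 2-homogeneous group with a regular elementary abelian normal subgroup. -/

set_option autoImplicit false

namespace Cfsg.Agent.FT

open Cfsg.Agent

section Conj

variable {Γ V : Type*} [Group Γ] [AddCommGroup V] {p : ℕ} [Fact p.Prime] [Module (ZMod p) V]
  (τ : Multiplicative V →* Γ) (hτ : Function.Injective τ)
  (hn : ∀ (g : Γ) (v : V), ∃ w : V, g * τ (Multiplicative.ofAdd v) * g⁻¹ = τ (Multiplicative.ofAdd w))

noncomputable def cj (g : Γ) (v : V) : V := (hn g v).choose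

theorem cj_spec (g : Γ) (v : V) :
    g * τ (Multiplicative.ofAdd v) * g⁻¹ = τ (Multiplicative.ofAdd (cj τ hn g v)) := (hn g v).choose_spec

include hτ in
theorem cj_eq {g : Γ} {v w : V} (h : g * τ (Multiplicative.ofAdd v) * g⁻¹ = τ (Multiplicative.ofAdd w)) :
    cj τ hn g v = w := by
  rw [cj_spec τ hn] at h
  exact Multiplicative.ofAdd.injective (hτ h)

include hτ in
theorem cj_add (g : Γ) (v w : V) : cj τ hn g (v + w) = cj τ hn g v + cj τ hn g w := by
  apply cj_eq τ hτ hn
  rw [ofAdd_add, map_mul, ofAdd_add, map_mul, ← cj_spec τ hn, ← cj_spec τ hn]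
  group

include hτ in
theorem cj_one (v : V) : cj τ hn 1 v = v := by
  apply cj_eq τ hτ hn
  rw [one_mul, inv_one, mul_one]

include hτ in
theorem cj_mul (g h : Γ) (v : V) : cj τ hn (g * h) v = cj τ hn g (cj τ hn h v) := by
  apply cj_eq τ hτ hn
  rw [← cj_spec τ hn, ← cj_spec τ hn]
  group

/-- the conjugation action as linear maps -/
noncomputable def cjL : Γ →* (V ≃ₗ[ZMod p] V) where
  toFun g :=
    { toFun := cj τ hn g
      map_add' := cj_add τ hτ hn g
      map_smul' := fun c v => ZMod.map_smul (AddMonoidHom.mk' (cj τ hn g) (cj_add τ hτ hn g)) c v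
      invFun := cj τ hn g⁻¹
      left_inv := fun v => by rw [← cj_mul τ hτ hn, inv_mul_cancel, cj_one τ hτ hn]
      right_inv := fun v => by rw [← cj_mul τ hτ hn, mul_inv_cancel, cj_one τ hτ hn] }
  map_one' := LinearEquiv.ext (cj_one τ hτ hn)
  map_mul' g h := LinearEquiv.ext (cj_mul τ hτ hn g h)

theorem cjL_apply (g : Γ) (v : V) : (cjL (p := p) τ hτ hn g) v = cj τ hn g v := rfl

end Conj

theorem th_core {Γ V α : Type*} [Group Γ] [Finite Γ] [MulAction Γ α] [AddCommGroup V] {p : ℕ} [Fact p.Prime]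
    [Module (ZMod p) V] [Finite V] [Nontrivial V]
    (τ : Multiplicative V →* Γ)
    (hn : ∀ (g : Γ) (v : V), ∃ w : V, g * τ (Multiplicative.ofAdd v) * g⁻¹ = τ (Multiplicative.ofAdd w))
    (ω : α) (hbij : Function.Bijective (fun v : V => τ (Multiplicative.ofAdd v) • ω))
    (hhom : ∀ x y z w : α, x ≠ y → z ≠ w → ∃ g : Γ, (g • x = z ∧ g • y = w) ∨ (g • x = w ∧ g • y = z))
    (hsol : Group.IsSolvable (MulAction.stabilizer Γ ω))
    (hbad : Nat.card V ∉ ({9, 25, 49, 121, 529, 81} : Set ℕ)) :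
    ∃ (F : Type) (_ : Field F) (_ : Fintype F) (E : α ≃ F), Fintype.card F = Nat.card V ∧
      (∀ g : Γ, ∃ (a b : F) (σ : F ≃+* F), a ≠ 0 ∧ ∀ x : α, E (g • x) = a * σ (E x) + b) ∧
      ∀ b : F, ∃ g : Γ, ∀ x : α, E (g • x) = E x + b := by
  have hτ : Function.Injective τ := by
    intro v w h
    have := hbij.1 (a₁ := Multiplicative.toAdd v) (a₂ := Multiplicative.toAdd w) (by
      change τ v • ω = τ w • ω
      rw [h])
    exact Multiplicative.toAdd.injective this
  let ρ0 : MulAction.stabilizer Γ ω →* (V ≃ₗ[ZMod p] V) := (cjL τ hτ hn).comp (MulAction.stabilizer Γ ω).subtype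
  let s : ℤˣ →* (V ≃ₗ[ZMod p] V) := DistribMulAction.toModuleAut (ZMod p) V
  have hcomm : ∀ m n, Commute (ρ0 m) (s n) := by
    intro m n
    apply LinearEquiv.ext
    intro v
    change ρ0 m (n • v) = n • ρ0 m v
    rcases Int.units_eq_one_or n with rfl | rfl
    · simp
    · rw [Units.neg_smul, one_smul, Units.neg_smul, one_smul, map_neg]
  let f := MonoidHom.noncommCoprod ρ0 s hcomm
  have hfsol : Group.IsSolvable f.range := by
    have : Group.IsSolvable (MulAction.stabilizer Γ ω × ℤˣ) := inferInstance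
    exact Group.isSolvable_of_surjective f.rangeRestrict_surjective
  have hffin : Finite f.range := by
    have : Finite (MulAction.stabilizer Γ ω × ℤˣ) := inferInstance
    exact Finite.of_surjective _ f.rangeRestrict_surjective
  -- key identity
  have hact : ∀ (h : Γ), h • ω = ω → ∀ v : V, h • τ (Multiplicative.ofAdd v) • ω =
      τ (Multiplicative.ofAdd (cj τ hn h v)) • ω := by
    intro h hh v
    rw [← cj_spec τ hn h v, mul_smul, mul_smul]
    congr 1
    congr 1
    rw [eq_inv_smul_iff, hh]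
  have h0 : τ (Multiplicative.ofAdd (0 : V)) = 1 := by rw [ofAdd_zero, map_one]
  have htrans : ∀ v w : V, v ≠ 0 → w ≠ 0 → ∃ g : f.range, f.range.subtype g v = w := by
    intro v w hv hw
    have hne : ∀ x : V, x ≠ 0 → ω ≠ τ (Multiplicative.ofAdd x) • ω := by
      intro x hx h
      apply hx
      apply hbij.1
      change τ (Multiplicative.ofAdd x) • ω = τ (Multiplicative.ofAdd (0 : V)) • ω
      rw [h0, one_smul, ← h]
    obtain ⟨g, hg | hg⟩ := hhom ω _ ω _ (hne v hv) (hne w hw)
    · have hgs : g ∈ MulAction.stabilizer Γ ω := hg.1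
      refine ⟨⟨f (⟨g, hgs⟩, 1), ⟨_, rfl⟩⟩, ?_⟩
      change ((ρ0 ⟨g, hgs⟩ * s 1) : V ≃ₗ[ZMod p] V) v = w
      rw [map_one, mul_one]
      change cj τ hn g v = w
      apply hbij.1
      change τ (Multiplicative.ofAdd (cj τ hn g v)) • ω = τ (Multiplicative.ofAdd w) • ω
      rw [← hact g hg.1, hg.2]
    · set g' := τ (Multiplicative.ofAdd (-w)) * g with hg'
      have hg1 : g' • ω = ω := by
        rw [hg', mul_smul, hg.1, ← mul_smul, ← map_mul, ← ofAdd_add, neg_add_cancel, h0, one_smul]
      have hg2 : g' • τ (Multiplicative.ofAdd v) • ω = τ (Multiplicative.ofAdd (-w)) • ω := by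
        rw [hg', mul_smul, hg.2]
      have hgs : g' ∈ MulAction.stabilizer Γ ω := hg1
      refine ⟨⟨f (⟨g', hgs⟩, -1), ⟨_, rfl⟩⟩, ?_⟩
      change cj τ hn g' (((-1 : ℤˣ)) • v) = w
      have h3 : cj τ hn g' v = -w := by
        apply hbij.1
        change τ (Multiplicative.ofAdd (cj τ hn g' v)) • ω = τ (Multiplicative.ofAdd (-w)) • ω
        rw [← hact g' hg1, hg2]
      rw [Units.neg_smul, one_smul]
      have h4 := map_neg (cjL (p := p) τ hτ hn g') v
      rw [cjL_apply, cjL_apply, h3, neg_neg] at h4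
      exact h4
  rcases Cfsg.Agent.S3360.result p (V := V) hfsol f.range.subtype f.range.subtype_injective htrans with
    ⟨F, hF, hFt, e, he⟩ | h
  · let π : V ≃ α := Equiv.ofBijective _ hbij
    have hπ : ∀ v, π v = τ (Multiplicative.ofAdd v) • ω := fun _ => rfl
    refine ⟨F, hF, hFt, π.symm.trans e.toEquiv, ?_, ?_, ?_⟩
    · rw [← Nat.card_eq_fintype_card]
      exact (Nat.card_congr e.toEquiv).symm
    · intro g
      obtain ⟨m, hm⟩ := hbij.2 (g • ω)
      change τ (Multiplicative.ofAdd m) • ω = g • ω at hm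
      set h := (τ (Multiplicative.ofAdd m))⁻¹ * g with hh
      have hgh : g = τ (Multiplicative.ofAdd m) * h := by rw [hh]; group
      have h1 : h • ω = ω := by rw [hh, mul_smul, ← hm, inv_smul_smul]
      obtain ⟨a, σ, hσ⟩ := he ⟨f (⟨h, h1⟩, 1), ⟨_, rfl⟩⟩
      have hσ' : ∀ v, e (cj τ hn h v) = a * σ (e v) := by
        intro v
        have := hσ v
        change e ((ρ0 ⟨h, h1⟩ * s 1 : V ≃ₗ[ZMod p] V) v) = _ at this
        rw [map_one, mul_one] at this
        exact this
      refine ⟨a, e m, σ, ?_, ?_⟩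
      · rintro rfl
        obtain ⟨v, hv⟩ := exists_ne (0 : V)
        apply hv
        have h2 := hσ' v
        rw [zero_mul] at h2
        have h3 : cj τ hn h v = 0 := e.injective (by rw [h2, map_zero])
        have h4 : cjL (p := p) τ hτ hn h v = 0 := h3
        exact (cjL (p := p) τ hτ hn h).map_eq_zero_iff.1 h4
      · intro x
        obtain ⟨v, rfl⟩ := π.surjective x
        change e (π.symm (g • π v)) = a * σ (e (π.symm (π v))) + e m
        rw [Equiv.symm_apply_apply, ← hσ', ← map_add]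
        congr 1
        rw [Equiv.symm_apply_eq, hπ, hπ, hgh, mul_smul, hact h h1, ← mul_smul, ← map_mul, ← ofAdd_add, add_comm]
    · intro b
      refine ⟨τ (Multiplicative.ofAdd (e.symm b)), fun x => ?_⟩
      obtain ⟨v, rfl⟩ := π.surjective x
      change e (π.symm (_ • π v)) = e (π.symm (π v)) + b
      rw [Equiv.symm_apply_apply]
      have h2 : e (v + e.symm b) = e v + b := by rw [map_add, AddEquiv.apply_symm_apply]
      rw [← h2]
      congr 1
      rw [Equiv.symm_apply_eq, hπ, hπ, ← mul_smul, ← map_mul, ← ofAdd_add, add_comm]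
  · exact absurd h hbad

end Cfsg.Agent.FT
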